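import Cfsg.Agent.H460.OT.BruComb

/-!
# S3509 exceptional row, common lemma TOP (helper899)

`S` a closed symmetric set of roots, `Ψ` an irreducible component of `S`.

* `Jn cs h a b` : `a + b` or `a - b` is a root;
* `IsComp cs h S Ψ` : `Ψ` is a component of `S` with respect to `Jn` (closed in `S`, minimal);
* `exists_top` : `Ψ` has exactly one top (`0 ≤ β` and `β + a` is not a root for `0 ≤ a ∈ S`);
* `exists_top_fix` : it is fixed by every `θ` preserving the roots, `S`, the positive part of `S` and `Ψ`.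

All irreducible or reducible, simply laced or not, finite root systems.
-/

set_option autoImplicit false
set_option linter.unusedSectionVars false

namespace Cfsg.Agent.H899.RG

open CoxeterSystem Cfsg.Agent.ChevalleyStructure.CoxeterGeom Cfsg.Agent.Tits.Roots Cfsg.Agent.Tits.Core
  Cfsg.Agent.Tits.RootComb Cfsg.Agent.Tits.Exchange Cfsg.Agent.Nodes.Reps Cfsg.Agent.Nodes.BNOf
  Cfsg.Agent.Nodes.Coroot Cfsg.Agent.Nodes.PosPair Cfsg.Agent.KFacts.RgdSL Cfsg.Agent.H460.OT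

variable {I W : Type*} [Fintype I] [DecidableEq I] [Group W] {M : CoxeterMatrix I}
  (cs : CoxeterSystem M W) {A : I → I → ℤ} (h : IsCartan M A)

/-- `a` and `b` are joined -/
def Jn (a b : I → ℤ) : Prop := IsRoot cs h (a + b) ∨ IsRoot cs h (a - b)

/-- irreducible components of a closed symmetric set of roots -/
structure IsComp (S Ψ : Set (I → ℤ)) : Prop where
  sub : ∀ a ∈ Ψ, a ∈ S
  ne : Ψ.Nonempty
  neg : ∀ a ∈ Ψ, -a ∈ Ψ
  cl : ∀ a ∈ Ψ, ∀ b ∈ S, Jn cs h a b → b ∈ Ψ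
  min : ∀ B : Set (I → ℤ), (∀ a ∈ B, a ∈ Ψ) → B.Nonempty → (∀ a ∈ B, -a ∈ B) →
    (∀ a ∈ B, ∀ b ∈ Ψ, Jn cs h a b → b ∈ B) → ∀ a ∈ Ψ, a ∈ B

variable {cs h}

theorem add_of_form_neg [Fintype W] {x y : I → ℤ} (hx : IsRoot cs h x) (hy : IsRoot cs h y) (hxy : x ≠ -y)
    (hc : form cs h x y < 0) : IsRoot cs h (x + y) := by
  have h1 := isRoot_sub_of_pos (cs := cs) (h := h) hx hy.neg hxy (by
    rw [cpr_pos_iff cs h x hy.neg, form_neg_right]
    omega)
  rwa [sub_neg_eq_add] at h1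

theorem sub_of_form_pos [Fintype W] {x y : I → ℤ} (hx : IsRoot cs h x) (hy : IsRoot cs h y) (hxy : x ≠ y)
    (hc : 0 < form cs h x y) : IsRoot cs h (x - y) :=
  isRoot_sub_of_pos hx hy hxy (by rwa [cpr_pos_iff cs h x hy])

section

variable {S Ψ : Set (I → ℤ)} (hS : ∀ a ∈ S, IsRoot cs h a) (hneg : ∀ a ∈ S, -a ∈ S)
  (hadd : ∀ a ∈ S, ∀ b ∈ S, IsRoot cs h (a + b) → a + b ∈ S)

include hS hneg hadd in
theorem IsComp.add_mem (hΨ : IsComp cs h S Ψ) {a b : I → ℤ} (ha : a ∈ Ψ) (hb : b ∈ S) (hab : IsRoot cs h (a + b)) :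
    a + b ∈ Ψ := by
  refine hΨ.cl a ha _ (hadd a (hΨ.sub a ha) b hb hab) (Or.inr ?_)
  have e : a - (a + b) = -b := by abel
  rw [e]
  exact (hS b hb).neg

include hS hneg hadd in
theorem IsComp.cl_form [Fintype W] (hΨ : IsComp cs h S Ψ) {a b : I → ℤ} (ha : a ∈ Ψ) (hb : b ∈ S)
    (hab : form cs h a b ≠ 0) : b ∈ Ψ := by
  by_cases h1 : a = b
  · rwa [← h1]
  by_cases h2 : a = -b
  · have := hΨ.neg a ha
    rwa [h2, neg_neg] at this
  rcases lt_or_gt_of_ne hab with h3 | h3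
  · exact hΨ.cl a ha b hb (Or.inl (add_of_form_neg (hS a (hΨ.sub a ha)) (hS b hb) h2 h3))
  · exact hΨ.cl a ha b hb (Or.inr (sub_of_form_pos (hS a (hΨ.sub a ha)) (hS b hb) h1 h3))

include hS hneg hadd in
theorem IsComp.min_form [Fintype W] (hΨ : IsComp cs h S Ψ) (B : Set (I → ℤ)) (hB : ∀ a ∈ B, a ∈ Ψ) (hne : B.Nonempty)
    (hcl : ∀ a ∈ B, ∀ b ∈ Ψ, form cs h a b ≠ 0 → b ∈ B) : ∀ a ∈ Ψ, a ∈ B := by
  have hr : ∀ a ∈ Ψ, IsRoot cs h a := fun a ha => hS a (hΨ.sub a ha)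
  have hp : ∀ a ∈ Ψ, form cs h a a ≠ 0 := fun a ha => (form_pos cs h (hr a ha).ne_zero).ne'
  refine hΨ.min B hB hne (fun a ha => hcl a ha _ (hΨ.neg a (hB a ha)) ?_) ?_
  · rw [form_neg_right, neg_ne_zero]
    exact hp a (hB a ha)
  · intro a ha b hb hab
    by_cases h1 : form cs h a b = 0
    · rcases hab with h2 | h2
      · have h3 := hΨ.add_mem hS hneg hadd (hB a ha) (hΨ.sub b hb) h2
        have h4 : a + b ∈ B := hcl a ha _ h3 (by
          rw [form_add_right, h1, add_zero]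
          exact hp a (hB a ha))
        refine hcl _ h4 b hb ?_
        rw [form_add_left, h1, zero_add]
        exact hp b hb
      · rw [sub_eq_add_neg] at h2
        have h3 := hΨ.add_mem hS hneg hadd (hB a ha) (hΨ.sub _ (hΨ.neg b hb)) h2
        have h4 : a + -b ∈ B := hcl a ha _ h3 (by
          rw [form_add_right, form_neg_right, h1, neg_zero, add_zero]
          exact hp a (hB a ha))
        refine hcl _ h4 b hb ?_
        rw [form_add_left, form_neg_left, h1, zero_add, neg_ne_zero]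
        exact hp b hb
    · exact hcl a ha b hb h1

include hS hneg hadd in
/-- **The top of a component.** -/
theorem exists_top [Finite W] (hΨ : IsComp cs h S Ψ) :
    ∃ β ∈ Ψ, 0 ≤ β ∧ (∀ a ∈ S, 0 ≤ a → ¬ IsRoot cs h (β + a)) ∧
      ∀ β' ∈ Ψ, 0 ≤ β' → (∀ a ∈ S, 0 ≤ a → ¬ IsRoot cs h (β' + a)) → β' = β := by
  have := Fintype.ofFinite W
  have hr : ∀ a ∈ Ψ, IsRoot cs h a := fun a ha => hS a (hΨ.sub a ha)
  -- existence
  have hfin : {a | a ∈ Ψ ∧ 0 ≤ a}.Finite := (RGD.finite_roots (cs := cs) (h := h)).subset fun x hx => hr x hx.1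
  have hne : {a | a ∈ Ψ ∧ 0 ≤ a}.Nonempty := by
    obtain ⟨a, ha⟩ := hΨ.ne
    rcases (hr a ha).pos_or_neg with h1 | h1
    · exact ⟨a, ha, h1⟩
    · exact ⟨-a, hΨ.neg a ha, neg_nonneg.2 h1⟩
  obtain ⟨β, ⟨hβ, hβ0⟩, hmax⟩ := Set.exists_max_image _ (fun a : I → ℤ => ∑ i, a i) hfin hne
  have htop : ∀ a ∈ S, 0 ≤ a → ¬ IsRoot cs h (β + a) := by
    intro a ha ha0 hba
    have h1 := hΨ.add_mem hS hneg hadd hβ ha hba
    have h2 := hmax (β + a) ⟨h1, add_nonneg hβ0 ha0⟩
    have h3 : ∑ i, (β + a) i = ∑ i, β i + ∑ i, a i := by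
      rw [← Finset.sum_add_distrib]
      rfl
    have h4 : 0 < ∑ i, a i := by
      have h5 : ∃ i, a i ≠ 0 := by
        by_contra hcon
        push Not at hcon
        exact (hS a ha).ne_zero (funext hcon)
      obtain ⟨i, hi⟩ := h5
      refine Finset.sum_pos' (fun j _ => ha0 j) ⟨i, Finset.mem_univ i, lt_of_le_of_ne (ha0 i) (Ne.symm hi)⟩
    simp only [h3] at h2
    omega
  refine ⟨β, hβ, hβ0, htop, fun β' hβ' hβ'0 htop' => ?_⟩
  -- uniqueness
  by_contra hne'
  have key : ∀ b, b ∈ Ψ → 0 ≤ b → (∀ a ∈ S, 0 ≤ a → ¬ IsRoot cs h (b + a)) → ∀ a ∈ S, 0 ≤ a → 0 ≤ form cs h a b := by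
    intro b hb hb0 hbt a ha ha0
    by_contra hcon
    push Not at hcon
    refine hbt a ha ha0 ?_
    rw [add_comm]
    refine add_of_form_neg (hS a ha) (hr b hb) ?_ hcon
    rintro rfl
    exact (hS _ ha).ne_zero (le_antisymm (by simpa using hb0) ha0)
  have hbb' : 0 ≤ form cs h β β' := key β' hβ' hβ'0 htop' β (hΨ.sub β hβ) hβ0
  have horth : form cs h β β' = 0 := by
    by_contra hcon
    have h1 : 0 < form cs h β β' := lt_of_le_of_ne hbb' (Ne.symm hcon)
    have h2 := sub_of_form_pos (hr β hβ) (hr β' hβ') (fun h => hne' h.symm) h1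
    have h3 : β - β' ∈ S := by
      rw [sub_eq_add_neg] at h2 ⊢
      exact hadd β (hΨ.sub β hβ) _ (hneg _ (hΨ.sub β' hβ')) h2
    rcases h2.pos_or_neg with h4 | h4
    · refine htop' _ h3 h4 ?_
      rw [add_sub_cancel]
      exact hr β hβ
    · refine htop _ (hneg _ h3) (neg_nonneg.2 h4) ?_
      have e : β + -(β - β') = β' := by abel
      rw [e]
      exact hr β' hβ'
  -- elements not orthogonal to `β` are orthogonal to `β'`
  have hpos : ∀ g ∈ S, 0 ≤ g → form cs h g β ≠ 0 → form cs h g β' = 0 := by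
    intro g hg hg0 hgb
    by_cases hgβ : g = β
    · rw [hgβ]; exact horth
    have h1 : 0 < form cs h g β := lt_of_le_of_ne (key β hβ hβ0 htop g hg hg0) (Ne.symm hgb)
    have h2 := sub_of_form_pos (hr β hβ) (hS g hg) (fun h => hgβ h.symm) (by rwa [form_comm])
    have h3 : β - g ∈ S := by
      rw [sub_eq_add_neg] at h2 ⊢
      exact hadd β (hΨ.sub β hβ) _ (hneg _ hg) h2
    have h4 : 0 ≤ β - g := by
      rcases h2.pos_or_neg with h4 | h4
      · exact h4
      · exfalso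
        refine htop _ (hneg _ h3) (neg_nonneg.2 h4) ?_
        have e : β + -(β - g) = g := by abel
        rw [e]
        exact hS g hg
    have h5 := key β' hβ' hβ'0 htop' _ h3 h4
    have h6 := key β' hβ' hβ'0 htop' g hg hg0
    rw [form_sub_left, horth] at h5
    omega
  have hall : ∀ g ∈ S, form cs h g β ≠ 0 → form cs h g β' = 0 := by
    intro g hg hgb
    rcases (hS g hg).pos_or_neg with h1 | h1
    · exact hpos g hg h1 hgb
    · have h2 := hpos (-g) (hneg g hg) (neg_nonneg.2 h1) (by rw [form_neg_left, neg_ne_zero]; exact hgb)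
      rw [form_neg_left, neg_eq_zero] at h2
      exact h2
  -- the set of roots not orthogonal to `E`
  have hstep : ∀ e ∈ Ψ, ∀ d ∈ Ψ, form cs h e β ≠ 0 → form cs h d β = 0 → form cs h d e ≠ 0 →
      ∃ d', (d' = d ∨ d' = -d) ∧ e + d' ∈ Ψ := by
    intro e he d hd he1 hd1 hde
    have hned : e ≠ d := fun h => he1 (by rw [h]; exact hd1)
    have hned' : e ≠ -d := fun h => he1 (by rw [h, form_neg_left, hd1, neg_zero])
    rcases lt_or_gt_of_ne hde with h1 | h1
    · refine ⟨d, Or.inl rfl, hΨ.add_mem hS hneg hadd he (hΨ.sub d hd) ?_⟩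
      exact add_of_form_neg (hr e he) (hr d hd) hned' (by rwa [form_comm])
    · refine ⟨-d, Or.inr rfl, hΨ.add_mem hS hneg hadd he (hneg _ (hΨ.sub d hd)) ?_⟩
      have h2 := sub_of_form_pos (hr e he) (hr d hd) hned (by rwa [form_comm])
      rwa [sub_eq_add_neg] at h2
  let B : Set (I → ℤ) := {d | d ∈ Ψ ∧ (form cs h d β ≠ 0 ∨ ∃ e ∈ Ψ, form cs h e β ≠ 0 ∧ form cs h d e ≠ 0)}
  have hB := hΨ.min_form hS hneg hadd B (fun a ha => ha.1)
    ⟨β, hβ, Or.inl (form_pos cs h (hr β hβ).ne_zero).ne'⟩ (by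
      rintro d ⟨hd, hd'⟩ f hf hdf
      refine ⟨hf, ?_⟩
      by_cases hdβ : form cs h d β = 0
      · obtain ⟨e, he, he1, hde⟩ := hd'.resolve_left (fun h => h hdβ)
        right
        by_cases hfe : form cs h f e = 0
        · obtain ⟨d', hd', hed⟩ := hstep e he d hd he1 hdβ hde
          refine ⟨e + d', hed, ?_, ?_⟩
          · rw [form_add_left]
            rcases hd' with rfl | rfl
            · rw [hdβ, add_zero]; exact he1
            · rw [form_neg_left, hdβ, neg_zero, add_zero]; exact he1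
          · rw [form_add_right, hfe, zero_add]
            rcases hd' with rfl | rfl
            · rw [form_comm]; exact hdf
            · rw [form_neg_right, neg_ne_zero, form_comm]; exact hdf
        · exact ⟨e, he, he1, hfe⟩
      · right
        exact ⟨d, hd, hdβ, by rw [form_comm]; exact hdf⟩)
  obtain ⟨-, h1⟩ := hB β' hβ'
  have hp' : form cs h β' β' ≠ 0 := (form_pos cs h (hr β' hβ').ne_zero).ne'
  rcases h1 with h1 | ⟨e, he, he1, h2⟩
  · exact h1 (by rw [form_comm]; exact horth)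
  · by_cases h3 : form cs h β' β = 0
    · obtain ⟨d', hd', hed⟩ := hstep e he β' hβ' he1 h3 h2
      have h4 := hall e (hΨ.sub e he) he1
      exact h2 (by rw [form_comm]; exact h4)
    · exact h3 (by rw [form_comm]; exact horth)

include hS hneg hadd in
/-- **The top of a stable component is fixed.** -/
theorem exists_top_fix [Finite W] (hΨ : IsComp cs h S Ψ) {θ : (I → ℤ) ≃+ (I → ℤ)}
    (hθr : ∀ a, IsRoot cs h a → IsRoot cs h (θ a)) (hθS : ∀ a, θ a ∈ S ↔ a ∈ S) (hθp : ∀ a ∈ S, 0 ≤ a → 0 ≤ θ a)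
    (hθΨ : ∀ a ∈ Ψ, θ a ∈ Ψ) :
    ∃ β ∈ Ψ, 0 ≤ β ∧ θ β = β ∧ ∀ a ∈ S, 0 ≤ a → ¬ IsRoot cs h (β + a) := by
  obtain ⟨β, hβ, hβ0, htop, huniq⟩ := exists_top hS hneg hadd hΨ
  refine ⟨β, hβ, hβ0, huniq (θ β) (hθΨ β hβ) (hθp β (hΨ.sub β hβ) hβ0) ?_, htop⟩
  intro a ha ha0 hroot
  have h1 : θ.symm a ∈ S := by
    rw [← hθS, AddEquiv.apply_symm_apply]
    exact ha
  have h2 : 0 ≤ θ.symm a := by
    rcases (hS _ h1).pos_or_neg with h3 | h3
    · exact h3
    · exfalso
      have h4 := hθp _ (hneg _ h1) (neg_nonneg.2 h3)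
      rw [map_neg, AddEquiv.apply_symm_apply, neg_nonneg] at h4
      exact (hS a ha).ne_zero (le_antisymm h4 ha0)
  refine htop _ h1 h2 ?_
  -- `θ⁻¹` preserves roots: the roots are finite
  have hfin := RGD.finite_roots (cs := cs) (h := h)
  have h5 : ∃ c, IsRoot cs h c ∧ θ c = θ β + a := by
    have h6 : θ '' {a | IsRoot cs h a} = {a | IsRoot cs h a} := by
      refine Set.eq_of_subset_of_ncard_le ?_ ?_ hfin
      · rintro _ ⟨x, hx, rfl⟩
        exact hθr x hx
      · rw [Set.ncard_image_of_injective _ θ.injective]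
    have h7 : θ β + a ∈ θ '' {a | IsRoot cs h a} := by
      rw [h6]
      exact hroot
    obtain ⟨c, hc, e⟩ := h7
    exact ⟨c, hc, e⟩
  obtain ⟨c, hc, e⟩ := h5
  have h7 : c = β + θ.symm a := by
    apply θ.injective
    rw [e, map_add, AddEquiv.apply_symm_apply]
  rwa [← h7]

end

end Cfsg.Agent.H899.RG
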