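import Cfsg.Agent.H899.RG.ShortTab
import Cfsg.Agent.H398.RG.Line

/-!
# S3509, `F₄`: the condition on the base pair, `B₂` plane (helper899)

`β` long, `γ` short, `⟨γ, β⟩ = 1`, `⟨β, γ⟩ = 2`, in `chevF4.group k`, `2 ≠ 0` in `k`: `cond_short : Cond K X₀ Y₀`.
-/

set_option autoImplicit false
set_option linter.unusedSectionVars false

namespace Cfsg.Agent.H899.RG.Short

open CoxeterSystem Cfsg.Agent.ChevalleyStructure.CoxeterGeom Cfsg.Agent.Tits.Roots Cfsg.Agent.Tits.Core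
  Cfsg.Agent.Tits Cfsg.Agent.Tits.RootComb Cfsg.Agent.Nodes.Comb Cfsg.Agent.Nodes.Reps Cfsg.Agent.Nodes.Coroot
  Cfsg.Agent.Nodes.BNOf Cfsg.Agent.Nodes.PosPair Cfsg.Agent.KFacts.RgdSL
open Cfsg.Lie Cfsg.Agent.ChevalleyStructure Cfsg.Agent.ChevalleyStructure.CoxeterGeomTypes
  Cfsg.Agent.ChevalleyStructure.Elts
  Cfsg.Agent.Nodes.RGDChev Cfsg.Agent.Nodes.KindF Cfsg.Agent.Nodes.KindChev Cfsg.Agent.UGT.U2.FOne.FFour
open Cfsg.Agent.KFacts.RgdChevCoord (TT XX nc)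
open Cfsg.Agent.H398.RG
open scoped commutatorElement

universe u v

/-! ### the calculation -/

section Abs

variable {G : Type*} [Group G]

theorem comm_mul_right_of_comm {g e b : G} (h1 : b * g = g * b) (h2 : b * e = e * b) : ⁅g, e * b⁆ = ⁅g, e⁆ := by
  rw [commutatorElement_def, commutatorElement_def]
  calc g * (e * b) * g⁻¹ * (e * b)⁻¹ = g * e * (b * g⁻¹) * (b⁻¹ * e⁻¹) := by group
    _ = g * e * (g⁻¹ * b) * (b⁻¹ * e⁻¹) := by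
        have : b * g⁻¹ = g⁻¹ * b := by
          rw [eq_inv_mul_iff_mul_eq, ← mul_assoc, ← h1, mul_inv_cancel_right]
        rw [this]
    _ = g * e * g⁻¹ * e⁻¹ := by group

theorem comm_mul_left_of_comm {g b e : G} (h : b * e = e * b) : ⁅g * b, e⁆ = ⁅g, e⁆ := by
  rw [commutatorElement_def, commutatorElement_def]
  calc g * b * e * (g * b)⁻¹ * e⁻¹ = g * (b * e) * b⁻¹ * g⁻¹ * e⁻¹ := by group
    _ = g * e * g⁻¹ * e⁻¹ := by rw [h]; group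

theorem comm_mul_left (g d e : G) : ⁅g * d, e⁆ = g * ⁅d, e⁆ * g⁻¹ * ⁅g, e⁆ := by
  rw [commutatorElement_def, commutatorElement_def, commutatorElement_def]
  group

end Abs

variable {W : Type v} [Group W] (cs : CoxeterSystem CoxeterMatrix.F₄ W) {k : Type u} [Field k]

theorem qf_add (x y z : Fin 4 → ℤ) : qf AF d (x + y) z = qf AF d x z + qf AF d y z := by
  unfold qf pairing
  simp only [Pi.add_apply, mul_add, add_mul, Finset.sum_add_distrib]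

theorem qf_neg (x z : Fin 4 → ℤ) : qf AF d (-x) z = -qf AF d x z := by
  unfold qf pairing
  simp

theorem qf_sub (x y z : Fin 4 → ℤ) : qf AF d (x - y) z = qf AF d x z - qf AF d y z := by
  rw [sub_eq_add_neg, qf_add, qf_neg, sub_eq_add_neg]

theorem qf_smul (m : ℤ) (x z : Fin 4 → ℤ) : qf AF d (m • x) z = m * qf AF d x z := by
  unfold qf pairing
  simp only [Pi.smul_apply, smul_eq_mul, Finset.mul_sum, Finset.sum_mul]
  refine Finset.sum_congr rfl fun i _ => Finset.sum_congr rfl fun j _ => ?_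
  ring

/-- the vectors of the plane -/
def L (β γ : Fin 4 → ℤ) (i j : ℤ) : Fin 4 → ℤ := i • β + j • γ

theorem L_add (β γ : Fin 4 → ℤ) (i j i' j' : ℤ) : L β γ i j + L β γ i' j' = L β γ (i + i') (j + j') := by
  unfold L
  rw [add_smul, add_smul]
  abel

theorem L_two (β γ : Fin 4 → ℤ) (i j i' j' : ℤ) :
    L β γ i j + 2 • L β γ i' j' = L β γ (i + 2 * i') (j + 2 * j') := by
  rw [two_nsmul, L_add, L_add]
  congr 1 <;> ring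

theorem qf_L {β γ : Fin 4 → ℤ} (h1 : qf AF d β β = 4) (h2 : qf AF d γ γ = 2) (h3 : qf AF d β γ = 2) (i j i' j' : ℤ) :
    qf AF d (L β γ i j) (L β γ i' j') = 4 * i * i' + 2 * (i * j' + i' * j) + 2 * j * j' := by
  unfold L
  rw [qf_add, qf_smul, qf_smul, qf_symm β, qf_symm γ, qf_add, qf_add, qf_smul, qf_smul, qf_smul, qf_smul, h1, h2,
    h3, qf_symm γ β, h3]
  ring

/-- **(S) The condition in a `B₂` plane.** -/
theorem cond_short (h2 : (2 : k) ≠ 0) {α : MulAut ↥(chevF4.group k)} {K X₀ Y₀ : Subgroup ↥(chevF4.group k)}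
    {β γ : Fin 4 → ℤ} (hβ : IsRoot cs isType.isCartan β) (hγ : IsRoot cs isType.isCartan γ)
    (hc : cpr cs isType.isCartan γ β = 1) (hc' : cpr cs isType.isCartan β γ = 2)
    (hX₀ : ∀ u, u ∈ X₀ ↔ u ∈ XX chevF4 4 k β ∧ α u = u) (hY₀ : ∀ u, u ∈ Y₀ → u ∈ XX chevF4 4 k (-β) ∧ α u = u)
    {q : ℕ} (hq : q.Prime) (hXq : Nat.card X₀ = q) (hXK : X₀ ≤ K) (hYne : Y₀ ≠ ⊥) (hYM : Y₀ ≤ MK K X₀)
    {w w' : ↥(chevF4.group k)} (hw : w ∈ XX chevF4 4 k γ) (hw1 : w ≠ 1) (hwα : α w = w) (hwK : w ∈ K)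
    (hw' : w' ∈ XX chevF4 4 k (-γ)) (hw'1 : w' ≠ 1) (hw'α : α w' = w') (hw'K : w' ∈ K) : Cond K X₀ Y₀ := by
  intro N hN hMN hY
  have hXM := le_MK K X₀
  have hfin : Finite W := finite_W isType cs
  -- the plane
  obtain ⟨nβ, nγ, nβγ⟩ := norms_R cs hβ hγ hc hc'
  have hqf := qf_L nβ nγ nβγ
  have eβ : β = L β γ 1 0 := by simp [L]
  have eβ' : -β = L β γ (-1) 0 := by simp [L]
  have eγ : γ = L β γ 0 1 := by simp [L]
  have eγ' : -γ = L β γ 0 (-1) := by simp [L]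
  have rβ : IsRoot cs isType.isCartan (L β γ 1 0) := by rw [← eβ]; exact hβ
  have rβ' : IsRoot cs isType.isCartan (L β γ (-1) 0) := by rw [← eβ']; exact hβ.neg
  have rγ : IsRoot cs isType.isCartan (L β γ 0 1) := by rw [← eγ]; exact hγ
  have rγ' : IsRoot cs isType.isCartan (L β γ 0 (-1)) := by rw [← eγ']; exact hγ.neg
  have rε' : IsRoot cs isType.isCartan (L β γ (-1) 1) := by
    have h1 := isRoot_sub hγ hβ hc
    have h3 : γ - β = L β γ (-1) 1 := by unfold L; rw [neg_one_smul, one_smul]; abel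
    rwa [h3] at h1
  have rε : IsRoot cs isType.isCartan (L β γ 1 (-1)) := by
    have h1 := rε'.neg
    have h3 : -L β γ (-1) 1 = L β γ 1 (-1) := by unfold L; simp [add_comm]
    rwa [h3] at h1
  have rδ' : IsRoot cs isType.isCartan (L β γ 1 (-2)) := by
    have h1 := isRoot_refl cs isType.isCartan hβ hγ
    rw [hc'] at h1
    have h3 : β - (2 : ℤ) • γ = L β γ 1 (-2) := by unfold L; rw [one_smul, neg_smul, sub_eq_add_neg]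
    rwa [h3] at h1
  have rδ : IsRoot cs isType.isCartan (L β γ (-1) 2) := by
    have h1 := rδ'.neg
    have h3 : -L β γ 1 (-2) = L β γ (-1) 2 := by unfold L; simp [add_comm]
    rwa [h3] at h1
  -- the relations
  let A : ℤ → ℤ → Subgroup ↥(chevF4.group k) := fun i j => XX chevF4 4 k (L β γ i j)
  have PP : ∀ i j i' j' a b c e : ℤ, IsRoot cs isType.isCartan (L β γ i j) → IsRoot cs isType.isCartan (L β γ i' j') →
      4 * i * i + 2 * (i * j + i * j) + 2 * j * j = 4 → 4 * i' * i' + 2 * (i' * j' + i' * j') + 2 * j' * j' = 2 →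
      4 * i * i' + 2 * (i * j' + i' * j) + 2 * j * j' = -2 → i + i' = a → j + j' = b → i + 2 * i' = c →
      j + 2 * j' = e → ∀ x ∈ A i j, x ≠ 1 → ∀ v ∈ A i' j', v ≠ 1 →
      ∃ g ∈ A a b, g ≠ 1 ∧ ∃ f ∈ A c e, f ≠ 1 ∧ ⁅v, x⁆ = g * f := by
    rintro i j i' j' a b c e h3 h4 h5 h6 h7 rfl rfl rfl rfl x hx hx1 v hv hv1
    have h8 := comm_P (K := k) cs h3 h4 (by rw [hqf]; exact h5) (by rw [hqf]; exact h6) (by rw [hqf]; exact h7)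
      hx hx1 hv hv1
    rw [L_add, L_two] at h8
    exact h8
  have QQ : ∀ i j i' j' a b : ℤ, IsRoot cs isType.isCartan (L β γ i j) → IsRoot cs isType.isCartan (L β γ i' j') →
      4 * i * i + 2 * (i * j + i * j) + 2 * j * j = 2 → 4 * i' * i' + 2 * (i' * j' + i' * j') + 2 * j' * j' = 2 →
      4 * i * i' + 2 * (i * j' + i' * j) + 2 * j * j' = 0 → i + i' = a → j + j' = b →
      ∀ x ∈ A i j, ∀ v ∈ A i' j', ⁅v, x⁆ ∈ A a b ∧ (x ≠ 1 → v ≠ 1 → ⁅v, x⁆ ≠ 1) := by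
    rintro i j i' j' a b h3 h4 h5 h6 h7 rfl rfl x hx v hv
    have h8 := comm_Q (K := k) cs h2 h3 h4 (by rw [hqf]; exact h5) (by rw [hqf]; exact h6) (by rw [hqf]; exact h7)
      hx hv
    rw [L_add] at h8
    exact h8
  have RR : ∀ i j i' j' : ℤ, IsRoot cs isType.isCartan (L β γ i j) → IsRoot cs isType.isCartan (L β γ i' j') →
      4 * i * i + 2 * (i * j + i * j) + 2 * j * j = 4 → 0 ≤ 4 * i * i' + 2 * (i * j' + i' * j) + 2 * j * j' →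
      ∀ x ∈ A i j, ∀ v ∈ A i' j', v * x = x * v := by
    intro i j i' j' h3 h4 h5 h6 x hx v hv
    exact comm_R (K := k) cs h3 h4 (by rw [hqf]; exact h5) (by rw [hqf]; exact h6) hx hv
  have P1 := PP (-1) 0 0 1 (-1) 1 (-1) 2 rβ' rγ (by norm_num) (by norm_num) (by norm_num) (by norm_num) (by norm_num)
    (by norm_num) (by norm_num)
  have P2 := PP 1 0 (-1) 1 0 1 (-1) 2 rβ rε' (by norm_num) (by norm_num) (by norm_num) (by norm_num) (by norm_num)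
    (by norm_num) (by norm_num)
  have P3 := PP 1 0 0 (-1) 1 (-1) 1 (-2) rβ rγ' (by norm_num) (by norm_num) (by norm_num) (by norm_num) (by norm_num)
    (by norm_num) (by norm_num)
  have P4 := PP 1 (-2) 0 1 1 (-1) 1 0 rδ' rγ (by norm_num) (by norm_num) (by norm_num) (by norm_num) (by norm_num)
    (by norm_num) (by norm_num)
  have P6 := PP (-1) 2 1 (-1) 0 1 1 0 rδ rε (by norm_num) (by norm_num) (by norm_num) (by norm_num) (by norm_num)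
    (by norm_num) (by norm_num)
  have Q1 := QQ 1 (-1) 0 1 1 0 rε rγ (by norm_num) (by norm_num) (by norm_num) (by norm_num) (by norm_num)
  have Q2 := QQ 0 1 1 (-1) 1 0 rγ rε (by norm_num) (by norm_num) (by norm_num) (by norm_num) (by norm_num)
  -- commuting root groups
  have Rβδ := RR 1 0 (-1) 2 rβ rδ (by norm_num) (by norm_num)
  have Rβ'δ := RR (-1) 0 (-1) 2 rβ' rδ (by norm_num) (by norm_num)
  have Rβ'ε' := RR (-1) 0 (-1) 1 rβ' rε' (by norm_num) (by norm_num)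
  have Rβγ := RR 1 0 0 1 rβ rγ (by norm_num) (by norm_num)
  have Rβε := RR 1 0 1 (-1) rβ rε (by norm_num) (by norm_num)
  have Sγ : ∀ x ∈ A 0 1, ∀ v ∈ A 0 1, v * x = x * v := fun x hx v hv => comm_self (K := k) cs rγ hx hv
  have Sε : ∀ x ∈ A 1 (-1), ∀ v ∈ A 1 (-1), v * x = x * v := fun x hx v hv => comm_self (K := k) cs rε hx hv
  have Sβ : ∀ x ∈ A 1 0, ∀ v ∈ A 1 0, v * x = x * v := fun x hx v hv => comm_self (K := k) cs rβ hx hv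
  have hX : ∀ u, u ∈ X₀ ↔ u ∈ A 1 0 ∧ α u = u := fun u => by
    rw [hX₀]
    change u ∈ XX chevF4 4 k β ∧ α u = u ↔ u ∈ XX chevF4 4 k (L β γ 1 0) ∧ α u = u
    rw [← eβ]
  have hYY : ∀ u ∈ Y₀, u ∈ A (-1) 0 ∧ α u = u := fun u hu => by
    have h3 := hY₀ u hu
    rw [eβ'] at h3
    exact h3
  have hwA : w ∈ A 0 1 := by
    change w ∈ XX chevF4 4 k (L β γ 0 1)
    rwa [← eγ]
  have hwA' : w' ∈ A 0 (-1) := by
    change w' ∈ XX chevF4 4 k (L β γ 0 (-1))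
    rwa [← eγ']
  clear_value A
  -- the elements
  obtain ⟨⟨x0, hx0⟩, hx01⟩ : ∃ x : X₀, x ≠ 1 := by
    have : Nontrivial X₀ := by
      have hf : Finite X₀ := Nat.finite_of_card_ne_zero (by rw [hXq]; exact hq.pos.ne')
      exact Finite.one_lt_card_iff_nontrivial.1 (by rw [hXq]; exact hq.one_lt)
    exact exists_ne 1
  have hx01 : x0 ≠ 1 := fun h => hx01 (Subtype.ext h)
  obtain ⟨⟨y, hy⟩, hy1⟩ := Subgroup.ne_bot_iff_exists_ne_one.1 hYne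
  have hy1 : y ≠ 1 := fun h => hy1 (Subtype.ext h)
  obtain ⟨hyX, hyα⟩ := hYY y hy
  obtain ⟨x, hx, n', hn', he⟩ := hY y hy
  have hx0' := (hX x0).1 hx0
  -- `v = ⁅w, y⁆ = a d`
  obtain ⟨a, ha, ha1, d', hd', hd'1, hv⟩ := P1 y hyX hy1 w hwA hw1
  have hvM : ⁅w, y⁆ ∈ MK K X₀ := comm_mem_MK' (hYM hy) hwK
  have hvα : α ⁅w, y⁆ = ⁅w, y⁆ := fix_comm hwα hyα
  have hvy : ⁅w, y⁆ * y = y * ⁅w, y⁆ := by
    rw [hv, mul_assoc, Rβ'δ y hyX d' hd', ← mul_assoc, Rβ'ε' y hyX a ha, mul_assoc]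
  -- `⁅a d, x⁆ = g d`
  have key : ∀ a ∈ A (-1) 1, a ≠ 1 → ∀ d' ∈ A (-1) 2, ∀ x' ∈ A 1 0, x' ≠ 1 →
      ∃ g ∈ A 0 1, g ≠ 1 ∧ ∃ d'' ∈ A (-1) 2, ⁅a * d', x'⁆ = g * d'' := by
    intro a ha ha1 d' hd' x' hx' hx'1
    obtain ⟨g, hg, hg1, f, hf, -, e⟩ := P2 x' hx' hx'1 a ha ha1
    refine ⟨g, hg, hg1, f, hf, ?_⟩
    rw [comm_mul_left_of_comm (Rβδ x' hx' d' hd'), e]
  -- `z ∈ N`
  obtain ⟨z, hzN, hzα, g, hg, hg1, d₁, hd₁, hz⟩ : ∃ z ∈ N, α z = z ∧ ∃ g ∈ A 0 1, g ≠ 1 ∧ ∃ d'' ∈ A (-1) 2,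
      z = g * d'' := by
    by_cases hx1 : x = 1
    · have hyN : y ∈ N := by rw [he, hx1, one_mul]; exact hn'
      obtain ⟨g0, hg0, hg01, d0, hd0, e0⟩ := key a ha ha1 d' hd' x0 hx0'.1 hx01
      rw [← hv] at e0
      have hmM : ⁅⁅w, y⁆, x0⁆ ∈ MK K X₀ := comm_mem_MK hvM (hXK hx0)
      have hmα : α ⁅⁅w, y⁆, x0⁆ = ⁅⁅w, y⁆, x0⁆ := fix_comm hvα hx0'.2
      have h7 : ⁅⁅⁅w, y⁆, x0⁆, y⁆ ∈ N := by
        rw [← commutatorElement_inv]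
        exact N.inv_mem (comm_mem_left hMN hmM hyN)
      have h5 : ⁅⁅⁅w, y⁆, x0⁆, y⁆ = ⁅g0, y⁆ := by
        rw [e0]
        exact comm_mul_left_of_comm (Rβ'δ y hyX d0 hd0)
      obtain ⟨a', ha', ha'1, f', hf', -, e1⟩ := P1 y hyX hy1 g0 hg0 hg01
      obtain ⟨g1, hg1, hg11, d1, hd1, e2⟩ := key a' ha' ha'1 f' hf' x0 hx0'.1 hx01
      refine ⟨⁅⁅⁅⁅w, y⁆, x0⁆, y⁆, x0⁆, comm_mem_left hMN (hXM hx0) h7, fix_comm (fix_comm hmα hyα) hx0'.2,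
        g1, hg1, hg11, d1, hd1, ?_⟩
      rw [h5, e1, e2]
    · have hx' := (hX x).1 hx
      obtain ⟨g1, hg1, hg11, d1, hd1, e2⟩ := key a ha ha1 d' hd' x hx'.1 hx1
      refine ⟨⁅⁅w, y⁆, x⁆, comm_mem_of hMN (hYM hy) hvM hn' he hvy, fix_comm hvα hx'.2, g1, hg1, hg11, d1, hd1, ?_⟩
      rw [hv, e2]
  -- `P = ⁅⁅w', x0⁆, w⁆ = e b`
  obtain ⟨e1, he1, -, f, hf, hf1, hef⟩ := P3 x0 hx0'.1 hx01 w' hwA' hw'1
  obtain ⟨g4, hg4, hg41, f4, hf4, -, h4⟩ := P4 f hf hf1 w hwA hw1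
  have hPM : ⁅⁅w', x0⁆, w⁆ ∈ MK K X₀ := comm_mem_MK (comm_mem_MK' (hXM hx0) hw'K) hwK
  have hPα : α ⁅⁅w', x0⁆, w⁆ = ⁅⁅w', x0⁆, w⁆ := fix_comm (fix_comm hw'α hx0'.2) hwα
  obtain ⟨e, hee, hee1, b, hb, hP⟩ : ∃ e ∈ A 1 (-1), e ≠ 1 ∧ ∃ b ∈ A 1 0, ⁅⁅w', x0⁆, w⁆ = e * b := by
    refine ⟨g4⁻¹, inv_mem hg4, inv_ne_one.2 hg41, f4⁻¹ * ⁅e1, w⁆, mul_mem (inv_mem hf4) (Q2 w hwA e1 he1).1, ?_⟩
    have h5 : ⁅f, w⁆ = g4⁻¹ * f4⁻¹ := by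
      rw [← commutatorElement_inv, h4, mul_inv_rev]
      have h6 := Rβε f4 hf4 g4 hg4
      rw [← mul_inv_rev, ← mul_inv_rev, h6]
    have h7 : e1 * g4⁻¹ = g4⁻¹ * e1 := Sε _ (inv_mem hg4) _ he1
    have h8 : e1 * f4⁻¹ = f4⁻¹ * e1 := Rβε _ (inv_mem hf4) _ he1
    rw [hef, comm_mul_left, h5]
    calc e1 * (g4⁻¹ * f4⁻¹) * e1⁻¹ * ⁅e1, w⁆ = (e1 * g4⁻¹) * f4⁻¹ * e1⁻¹ * ⁅e1, w⁆ := by group
      _ = g4⁻¹ * (e1 * f4⁻¹) * e1⁻¹ * ⁅e1, w⁆ := by rw [h7]; group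
      _ = g4⁻¹ * (f4⁻¹ * ⁅e1, w⁆) := by rw [h8]; group
  have hbe : b * e = e * b := (Rβε b hb e hee).symm
  -- `⁅g b', e b⁆ = ⁅g, e⁆`
  have key2 : ∀ g' ∈ A 0 1, ∀ b' ∈ A 1 0, ⁅g' * b', e * b⁆ = ⁅g', e⁆ := by
    intro g' hg' b' hb'
    have h5 : b * (g' * b') = g' * b' * b := by
      rw [← mul_assoc, ← Rβγ b hb g' hg', mul_assoc, Sβ b' hb' b hb, mul_assoc]
    rw [comm_mul_right_of_comm h5 hbe, comm_mul_left_of_comm (Rβε b' hb' e hee).symm]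
  have h5 : ⁅z, e * b⁆ = ⁅g * d₁, e⁆ := by
    rw [hz]
    refine comm_mul_right_of_comm ?_ hbe
    rw [← mul_assoc, ← Rβγ b hb g hg, mul_assoc, ← Rβδ b hb d₁ hd₁, mul_assoc]
  have hzP : ⁅z, ⁅⁅w', x0⁆, w⁆⁆ ∈ N := comm_mem_left hMN hPM hzN
  have hzPα : α ⁅z, ⁅⁅w', x0⁆, w⁆⁆ = ⁅z, ⁅⁅w', x0⁆, w⁆⁆ := fix_comm hzα hPα
  obtain ⟨ξ, hξN, hξ, hξ1, hξα⟩ : ∃ ξ ∈ N, ξ ∈ A 1 0 ∧ ξ ≠ 1 ∧ α ξ = ξ := by
    by_cases hd1 : d₁ = 1
    · have h6 : ⁅z, ⁅⁅w', x0⁆, w⁆⁆ = ⁅g, e⁆ := by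
        rw [hP, h5, hd1, mul_one]
      have h7 := Q1 e hee g hg
      exact ⟨_, hzP, by rw [h6]; exact h7.1, by rw [h6]; exact h7.2 hee1 hg1, hzPα⟩
    · obtain ⟨g6, hg6, hg61, f6, hf6, -, h6⟩ := P6 d₁ hd₁ hd1 e hee hee1
      have h7 : ⁅d₁, e⁆ = g6⁻¹ * f6⁻¹ := by
        rw [← commutatorElement_inv, h6, ← mul_inv_rev, Rβγ f6 hf6 g6 hg6]
      have h8 : ⁅z, ⁅⁅w', x0⁆, w⁆⁆ = g6⁻¹ * (f6⁻¹ * ⁅g, e⁆) := by
        have h9 : g * g6⁻¹ = g6⁻¹ * g := Sγ _ (inv_mem hg6) _ hg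
        have h10 : g * f6⁻¹ = f6⁻¹ * g := Rβγ _ (inv_mem hf6) _ hg
        rw [hP, h5, comm_mul_left, h7]
        calc g * (g6⁻¹ * f6⁻¹) * g⁻¹ * ⁅g, e⁆ = (g * g6⁻¹) * f6⁻¹ * g⁻¹ * ⁅g, e⁆ := by group
          _ = g6⁻¹ * (g * f6⁻¹) * g⁻¹ * ⁅g, e⁆ := by rw [h9]; group
          _ = g6⁻¹ * (f6⁻¹ * ⁅g, e⁆) := by rw [h10]; group
      have h9 : ⁅⁅z, ⁅⁅w', x0⁆, w⁆⁆, ⁅⁅w', x0⁆, w⁆⁆ = ⁅g6⁻¹, e⁆ := by
        rw [h8, hP]
        exact key2 _ (inv_mem hg6) _ (mul_mem (inv_mem hf6) (Q1 e hee g hg).1)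
      have h10 := Q1 e hee g6⁻¹ (inv_mem hg6)
      exact ⟨_, comm_mem_left hMN hPM hzP, by rw [h9]; exact h10.1,
        by rw [h9]; exact h10.2 hee1 (inv_ne_one.2 hg61), fix_comm hzPα hPα⟩
  exact le_of_prime hq hXq ((hX ξ).2 ⟨hξ, hξα⟩) hξ1 hξN

end Cfsg.Agent.H899.RG.Short
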